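import Cfsg.Agent.H76.HyX2
import Cfsg.Agent.S0730
import Cfsg.Agent.H29.Transport
import Mathlib.GroupTheory.Transfer

/-! A group acting faithfully on `F³` and containing the Borel subgroup of `PGL₂(F)` on the symmetric square:
identification with `PGL₂(F) × C`. -/

set_option autoImplicit false
set_option linter.unusedSectionVars false
open Subgroup

namespace Cfsg.Agent.H76
namespace Cfg
namespace W
variable {p : ℕ} {F X : Type*} [Field F] [Group X] [DistribMulAction X (F × F × F)] {C : Cfg p F X}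
  [Fintype F] [Finite X] {m n : ℕ} {w : X} (D : C.W m w)
include D

theorem pts (ω : X ⧸ C.NZ) : ω = ((1 : X) : X ⧸ C.NZ) ∨ ∃ b, ω = ((C.y b * w : X) : X ⧸ C.NZ) := by
  obtain ⟨x, rfl⟩ := QuotientGroup.mk_surjective ω
  by_cases hx : x ∈ C.NZ
  · left; rw [QuotientGroup.eq, mul_one, inv_mem_iff]; exact hx
  · obtain ⟨b, β, k, h1, h2, rfl⟩ := C.exists_KK hx
    refine .inr ⟨b, (QuotientGroup.eq.2 ?_).symm⟩
    rw [show (C.y b * w)⁻¹ * (C.y b * k * C.y β) = w⁻¹ * k * C.y β by group]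
    exact C.NZ.mul_mem (D.two k h1 h2) (C.y_mem β)

theorem pt_inj {b b' : F} (e : ((C.y b * w : X) : X ⧸ C.NZ) = (C.y b' * w : X)) : b = b' := by
  rw [QuotientGroup.eq, show (C.y b * w)⁻¹ * (C.y b' * w) = w⁻¹ * ((C.y b)⁻¹ * C.y b') * w by group, C.y_inv,
    C.y_mul] at e
  linear_combination -C.y_eq D.wK D.wK D.wn e

omit D in
theorem smul_one {g : X} : g • ((1 : X) : X ⧸ C.NZ) = (1 : X) ↔ g ∈ C.NZ := by
  rw [MulAction.Quotient.smul_coe, smul_eq_mul, QuotientGroup.eq, mul_one, mul_one, inv_mem_iff]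

omit D in
theorem smul_y (b b' : F) : C.y b • ((C.y b' * w : X) : X ⧸ C.NZ) = (C.y (b + b') * w : X) := by
  rw [MulAction.Quotient.smul_coe, smul_eq_mul, ← mul_assoc, C.y_mul]

theorem smul_H {η : X} (h : η ∈ C.H) {b b' : F} (e : η * C.y b * η⁻¹ = C.y b') :
    η • ((C.y b * w : X) : X ⧸ C.NZ) = (C.y b' * w : X) := by
  rw [MulAction.Quotient.smul_coe, smul_eq_mul, eq_comm, QuotientGroup.eq, ← e,
    show (η * C.y b * η⁻¹ * w)⁻¹ * (η * (C.y b * w)) = w⁻¹ * η * w by group]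
  exact (D.conj_H' h).2

omit D in
theorem h_y (l : Fˣ) (b : F) : C.h l * C.y (l * b) * (C.h l)⁻¹ = C.y b := by rw [← C.y_h]; group

theorem comm_y {η : X} (h : η ∈ C.H) (e : η * C.y 1 * η⁻¹ = C.y 1) (b : F) : η * C.y b * η⁻¹ = C.y b := by
  by_cases hb : b = 0
  · rw [hb, C.y_zero]; group
  have h1 := h_y (C := C) (Units.mk0 b hb)⁻¹ b
  rw [show (((Units.mk0 b hb)⁻¹ : Fˣ) : F) * b = 1 by simp [hb]] at h1
  have h2 := D.comm_h h (Units.mk0 b hb)⁻¹
  rw [← h1]
  generalize C.h (Units.mk0 b hb)⁻¹ = τ at h2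
  calc _ = (η * τ) * C.y 1 * (η * τ)⁻¹ := by group
    _ = τ * (η * C.y 1 * η⁻¹) * τ⁻¹ := by rw [← h2]; group
    _ = _ := by rw [e]

theorem sharp {g : X} (h0 : g • ((1 : X) : X ⧸ C.NZ) = (1 : X))
    (h1 : g • ((C.y 0 * w : X) : X ⧸ C.NZ) = (C.y 0 * w : X))
    (h2 : g • ((C.y 1 * w : X) : X ⧸ C.NZ) = (C.y 1 * w : X)) : g ∈ C.H ∧ ∀ b, g * C.y b * g⁻¹ = C.y b := by
  obtain ⟨β, η, hη, e⟩ := C.exists_H (C.NZ.inv_mem (smul_one.1 h0))
  have h4 := inv_smul_eq_iff.2 h1.symm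
  have h3 : η • ((C.y 0 * w : X) : X ⧸ C.NZ) = (C.y 0 * w : X) := D.smul_H hη (by rw [C.y_zero]; group)
  rw [e, mul_smul, smul_y] at h4
  have hβ := D.pt_inj (MulAction.injective η (h4.trans h3.symm))
  rw [add_zero] at hβ
  rw [hβ, C.y_zero, mul_one] at e
  have hg : g ∈ C.H := (inv_mem_iff).1 (e ▸ hη)
  obtain ⟨b, hb⟩ := C.conj_y hg 1
  rw [D.smul_H hg hb] at h2
  rw [D.pt_inj h2] at hb
  exact ⟨hg, D.comm_y hg hb⟩

theorem fix_all {g : X} (h : g ∈ C.H) (e : ∀ b, g * C.y b * g⁻¹ = C.y b) (ω : X ⧸ C.NZ) : g • ω = ω := by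
  rcases D.pts ω with rfl | ⟨b, rfl⟩
  · exact smul_one.2 h.2
  · exact D.smul_H h (e b)

theorem mem_ker {g : X} : g ∈ (MulAction.toPermHom X (X ⧸ C.NZ)).ker ↔ g ∈ C.H ∧ ∀ b, g * C.y b * g⁻¹ = C.y b :=
  ⟨fun h => have h' : ∀ ω : X ⧸ C.NZ, g • ω = ω := fun ω => congrArg (fun σ : Equiv.Perm _ => σ ω) h
    D.sharp (h' _) (h' _) (h' _), fun h => Equiv.ext (D.fix_all h.1 h.2)⟩

theorem exists_std (x : Fin 3 ↪ X ⧸ C.NZ) : ∃ g : X, g • x 0 = (1 : X) ∧ g • x 1 = (C.y 0 * w : X) ∧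
    g • x 2 = (C.y 1 * w : X) := by
  obtain ⟨g, h0⟩ := MulAction.exists_smul_eq X (x 0) ((1 : X) : X ⧸ C.NZ)
  have ne : ∀ (g : X) i j, g • x i = g • x j → i = j := fun g i j e => x.injective (MulAction.injective g e)
  rcases D.pts (g • x 1) with h1 | ⟨b, h1⟩
  · exact absurd (ne g 0 1 (h0.trans h1.symm)) (by decide)
  rcases D.pts (g • x 2) with h2 | ⟨b', h2⟩
  · exact absurd (ne g 0 2 (h0.trans h2.symm)) (by decide)
  have hb : -b + b' ≠ 0 := fun h => by
    rw [show b' = b by linear_combination h] at h2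
    exact absurd (ne g 1 2 (h1.trans h2.symm)) (by decide)
  refine ⟨C.h (Units.mk0 _ hb) * C.y (-b) * g, ?_, ?_, ?_⟩
  · rw [mul_smul, h0]; exact smul_one.2 (C.NZ.mul_mem (C.h_mem _) (C.y_mem _))
  · rw [mul_smul, mul_smul, h1, smul_y, neg_add_cancel]
    exact D.smul_H (C.h_mem_H _) (by rw [C.y_zero]; group)
  · rw [mul_smul, mul_smul, h2, smul_y]
    exact D.smul_H (C.h_mem_H _) (by simpa using h_y (C := C) (Units.mk0 _ hb) 1)

theorem card_pts : Nat.card (X ⧸ C.NZ) = Fintype.card F + 1 := by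
  have h := C.NZ.card_eq_card_quotient_mul_card_subgroup
  rw [D.card, C.card_NZ] at h
  refine Nat.eq_of_mul_eq_mul_right (show 0 < Nat.card C.H * Fintype.card F from
    Nat.mul_pos Nat.card_pos Fintype.card_pos) ?_
  rw [← h]; ring

theorem range_equiv [Fact p.Prime] (hp : p ≠ 2) (hn : Odd n) (hF : Fintype.card F = p ^ n) :
    Nonempty ((MulAction.toPermHom X (X ⧸ C.NZ)).range ≃* Matrix.ProjGenLinGroup (Fin 2) F) := by
  classical
  letI : Fintype (X ⧸ C.NZ) := Fintype.ofFinite _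
  obtain ⟨F', _, _, hF', ⟨e⟩⟩ := S0730.result (α := X ⧸ C.NZ) Fact.out hp hn
    (by rw [← Nat.card_eq_fintype_card, D.card_pts, hF]) (MulAction.toPermHom X (X ⧸ C.NZ)).range
    ⟨fun x x' => by
      obtain ⟨g, a0, a1, a2⟩ := D.exists_std x
      obtain ⟨g', b0, b1, b2⟩ := D.exists_std x'
      refine ⟨⟨_, g'⁻¹ * g, rfl⟩, Function.Embedding.ext fun i => ?_⟩
      change (g'⁻¹ * g) • x i = x' i
      rw [mul_smul, inv_smul_eq_iff]
      fin_cases i
      exacts [a0.trans b0.symm, a1.trans b1.symm, a2.trans b2.symm]⟩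
    (fun x => by
      rw [eq_bot_iff]
      rintro ⟨_, k, rfl⟩ hk
      obtain ⟨g, a0, a1, a2⟩ := D.exists_std x
      have h : ∀ i, (g * k * g⁻¹) • g • x i = g • x i := fun i => by
        have : k • x i = x i := congrArg (fun f : Fin 3 ↪ X ⧸ C.NZ => f i) hk
        rw [mul_smul, mul_smul, inv_smul_smul, this]
      have h1 := D.mem_ker.2 (D.sharp (a0 ▸ h 0) (a1 ▸ h 1) (a2 ▸ h 2))
      have h2 := (MonoidHom.normal_ker _).conj_mem _ h1 g⁻¹
      rw [show g⁻¹ * (g * k * g⁻¹) * g⁻¹⁻¹ = k by group] at h2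
      exact mem_bot.2 (Subtype.ext h2))
  exact ⟨e.trans (H29.centerQuotEquiv (H29.glEquiv (Fin 2) (FiniteField.ringEquivOfCardEq (hF'.trans hF.symm))))⟩

theorem central {c : X} (hc : c ∈ (MulAction.toPermHom X (X ⧸ C.NZ)).ker) (x : X) : c * x = x * c := by
  have h1 := D.mem_ker.1 hc
  have hy : ∀ b, c * C.y b = C.y b * c := fun b => mul_inv_eq_iff_eq_mul.1 (h1.2 b)
  have hN : ∀ x ∈ C.NZ, c * x = x * c := fun x hx => by
    obtain ⟨β, η, hη, rfl⟩ := C.exists_H hx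
    rw [← mul_assoc, D.comm_H h1.1 hη, mul_assoc, hy, mul_assoc]
  have hw : c * w = w * c := by
    have h2 := (D.mem_ker.1 ((MonoidHom.normal_ker _).conj_mem _ hc w⁻¹)).2 1
    have h3 : c * (w * C.y 1 * w⁻¹) = w * C.y 1 * w⁻¹ * c := by
      nth_rewrite 2 [← h2]; group
    have h4 : w * C.y 1 * w⁻¹ ∉ C.NZ := fun h => by
      have h5 : w⁻¹ * C.y 1 * w ∈ C.NZ := by
        have := C.NZ.mul_mem (C.NZ.mul_mem (C.NZ.inv_mem D.sq_mem.2) h) D.sq_mem.2
        convert this using 1; group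
      exact one_ne_zero (C.y_eq D.wK D.wK D.wn h5)
    obtain ⟨b, β, k, k1, k2, e⟩ := C.exists_KK h4
    rw [e] at h3
    replace h3 : c * k = k * c := by
      apply mul_left_cancel (a := C.y b); apply mul_right_cancel (b := C.y β)
      calc _ = C.y b * c * k * C.y β := by group
        _ = C.y b * k * C.y β * c := by rw [← hy, ← h3]; group
        _ = _ := by rw [mul_assoc _ (C.y β), ← hy]; group
    calc c * w = c * k * (w⁻¹ * k)⁻¹ := by group
      _ = k * (c * (w⁻¹ * k)⁻¹) := by rw [h3]; group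
      _ = _ := by rw [hN _ (C.NZ.inv_mem (D.two k k1 k2))]; group
  by_cases hx : x ∈ C.NZ
  · exact hN x hx
  · obtain ⟨b, β, k, k1, k2, rfl⟩ := C.exists_KK hx
    have hk : c * k = k * c := by
      calc c * k = c * w * (w⁻¹ * k) := by group
        _ = w * (c * (w⁻¹ * k)) := by rw [hw]; group
        _ = _ := by rw [hN _ (D.two k k1 k2)]; group
    rw [← mul_assoc, ← mul_assoc, hy, mul_assoc _ c, hk, mul_assoc, mul_assoc, hy]; group

theorem exists_phi : ∃ φ : C.H →* Multiplicative (ZMod m), Function.Surjective φ ∧ φ.ker = C.T.subgroupOf C.H := by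
  haveI : NeZero m := ⟨D.hm.pos.ne'⟩
  haveI : (C.T.subgroupOf C.H).Normal := ⟨fun a ha g => C.conj_T g.2 ha⟩
  let f : Fˣ →* C.H ⧸ C.T.subgroupOf C.H :=
    (QuotientGroup.mk' _).comp ((hW C w).codRestrict _ fun l => D.conj_H (C.h_mem_H l))
  have hf : Function.Surjective f := fun x => by
    obtain ⟨η, rfl⟩ := QuotientGroup.mk_surjective x
    obtain ⟨l, k, e⟩ := D.exists_H η.2
    refine ⟨k, QuotientGroup.eq.2 ⟨l, ?_⟩⟩
    change C.h l = (w * C.h k * w⁻¹)⁻¹ * η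
    rw [e]; group
  haveI := isCyclic_of_surjective f hf
  have h1 := (C.T.subgroupOf C.H).card_eq_card_quotient_mul_card_subgroup
  rw [Nat.card_congr (subgroupOfEquivOfLe C.T_le).toEquiv, C.card_T, D.hq, Nat.add_sub_cancel, D.card_H.1] at h1
  have h2 : Nat.card (C.H ⧸ C.T.subgroupOf C.H) = Nat.card (Multiplicative (ZMod m)) := by
    rw [Nat.card_congr Multiplicative.toAdd, Nat.card_zmod]
    exact Nat.eq_of_mul_eq_mul_right (show 0 < 2 * m from Nat.mul_pos two_pos D.hm.pos) (by rw [← h1]; ring)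
  let e := mulEquivOfCyclicCardEq h2
  refine ⟨e.toMonoidHom.comp (QuotientGroup.mk' _), e.surjective.comp QuotientGroup.mk_surjective, ?_⟩
  rw [← MonoidHom.comap_ker, (MonoidHom.ker_eq_bot_iff _).2 e.injective]
  exact QuotientGroup.ker_mk' _

theorem equiv [Fact p.Prime] (hp : p ≠ 2) (hn : Odd n) (hF : Fintype.card F = p ^ n) :
    Nonempty (X ≃* Matrix.ProjGenLinGroup (Fin 2) F × Multiplicative (ZMod m)) := by
  haveI : NeZero m := ⟨D.hm.pos.ne'⟩
  obtain ⟨e⟩ := D.range_equiv hp hn hF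
  obtain ⟨φ, hφ, hk⟩ := D.exists_phi
  have hi : C.H.index = Fintype.card F * (Fintype.card F + 1) :=
    Nat.eq_of_mul_eq_mul_left Nat.card_pos (C.H.card_mul_index.trans D.card)
  have hcop : (Nat.card (Multiplicative (ZMod m))).Coprime C.H.index := by
    rw [Nat.card_congr Multiplicative.toAdd, Nat.card_zmod, hi, D.hq]
    refine Nat.Coprime.mul_right ?_ ?_
    · simp
    · rw [show 2 * m + 1 + 1 = 2 + m * 2 by ring, Nat.coprime_add_mul_left_right]
      exact Nat.coprime_two_right.2 D.hm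
  have hV : ∀ c (hc : c ∈ (MulAction.toPermHom X (X ⧸ C.NZ)).ker),
      MonoidHom.transfer φ c = φ ⟨c, (D.mem_ker.1 hc).1⟩ ^ C.H.index := fun c hc => by
    rw [MonoidHom.transfer_eq_pow φ c fun k g _ => by
      rw [mul_assoc, D.central (pow_mem hc k), inv_mul_cancel_left], ← map_pow]
    rfl
  let f : X →* (MulAction.toPermHom X (X ⧸ C.NZ)).range × Multiplicative (ZMod m) :=
    (MulAction.toPermHom X (X ⧸ C.NZ)).rangeRestrict.prod (MonoidHom.transfer φ)
  have hf : Function.Bijective f := by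
    constructor
    · rw [injective_iff_map_eq_one]
      intro c hc
      have h1 : c ∈ (MulAction.toPermHom X (X ⧸ C.NZ)).ker := congrArg Subtype.val (congrArg Prod.fst hc)
      have h2 : MonoidHom.transfer φ c = 1 := congrArg Prod.snd hc
      rw [hV c h1] at h2
      have h3 : φ ⟨c, (D.mem_ker.1 h1).1⟩ = 1 := (powCoprime hcop).injective (by simpa using h2)
      obtain ⟨l, hl⟩ : (⟨c, (D.mem_ker.1 h1).1⟩ : C.H) ∈ C.T.subgroupOf C.H := hk ▸ h3
      change C.h l = c at hl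
      have h4 := (D.mem_ker.1 h1).2 (l * 1)
      rw [← hl, h_y] at h4
      rw [← hl, show l = 1 from Units.ext (by simpa using (C.y_inj h4).symm), C.h_one]
    · rintro ⟨⟨_, x, rfl⟩, a⟩
      obtain ⟨a', ha⟩ := (powCoprime hcop).surjective (a * (MonoidHom.transfer φ x)⁻¹)
      obtain ⟨η, rfl⟩ := hφ a'
      obtain ⟨b, hb⟩ := C.conj_y η.2 1
      have hb0 : b ≠ 0 := by
        rintro rfl
        rw [C.y_zero, conj_eq_one_iff, ← C.y_zero] at hb
        exact one_ne_zero (C.y_inj hb)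
      have hH := C.H.mul_mem (C.h_mem_H (Units.mk0 b hb0)) η.2
      have hc : C.h (Units.mk0 b hb0) * η ∈ (MulAction.toPermHom X (X ⧸ C.NZ)).ker :=
        D.mem_ker.2 ⟨hH, D.comm_y hH (by
          have := h_y (C := C) (Units.mk0 b hb0) 1
          rw [Units.val_mk0, mul_one, ← hb] at this
          nth_rewrite 2 [← this]; group)⟩
      refine ⟨C.h (Units.mk0 b hb0) * η * x, Prod.ext (Subtype.ext ?_) ?_⟩
      · change MulAction.toPermHom X _ _ = MulAction.toPermHom X _ x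
        rw [map_mul, MonoidHom.mem_ker.1 hc, one_mul]
      · change MonoidHom.transfer φ _ = a
        have h5 : φ ⟨_, C.h_mem_H (Units.mk0 b hb0)⟩ = 1 := by
          rw [← MonoidHom.mem_ker, hk]; exact ⟨_, rfl⟩
        rw [map_mul, hV _ hc, show (⟨_, (D.mem_ker.1 hc).1⟩ : C.H) = ⟨_, C.h_mem_H (Units.mk0 b hb0)⟩ * η from rfl,
          map_mul, h5, one_mul, ← eq_mul_inv_iff_mul_eq, ← ha]
        rfl
  exact ⟨(MulEquiv.ofBijective f hf).trans (e.prodCongr (MulEquiv.refl _))⟩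

end W
end Cfg
end Cfsg.Agent.H76
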