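/-
General counting lemmas for the rank 3 Frobenius problem (S2207).
-/
import Mathlib

set_option autoImplicit false

namespace Cfsg.Agent.H76.Rk

open Finset

section Act

variable {G Y : Type*} [Group G] [Finite G]

/-- orbit-stabiliser for an explicit action -/
theorem orb (P Q : Subgroup G) (act : G → Y → Y) (h1 : ∀ y, act 1 y = y)
    (hm : ∀ g g' y, act (g * g') y = act g (act g' y)) (y : Y)
    (hQ : ∀ g, g ∈ Q ↔ g ∈ P ∧ act g y = y) (S : Finset Y)
    (hS : ∀ z, z ∈ S ↔ ∃ g ∈ P, act g y = z) : S.card * Nat.card Q = Nat.card P := by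
  classical
  let inst : MulAction P Y :=
    { smul := fun g z => act g z
      one_smul := fun z => h1 z
      mul_smul := fun g g' z => hm g g' z }
  have hsm : ∀ (g : P) z, g • z = act g z := fun _ _ => rfl
  have e1 : (MulAction.orbit P y) = (S : Set Y) := by
    ext z
    rw [MulAction.mem_orbit_iff, Finset.mem_coe, hS]
    constructor
    · rintro ⟨g, hg⟩; exact ⟨g, g.2, hg⟩
    · rintro ⟨g, hg, h⟩; exact ⟨⟨g, hg⟩, h⟩
  have e2 : MulAction.stabilizer P y = Q.subgroupOf P := by
    ext g
    rw [MulAction.mem_stabilizer_iff, Subgroup.mem_subgroupOf, hQ, hsm]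
    simp
  have hle : Q ≤ P := fun g hg => ((hQ g).1 hg).1
  have e3 : Nat.card (MulAction.stabilizer P y) = Nat.card Q := by
    rw [e2]; exact Nat.card_congr (Subgroup.subgroupOfEquivOfLe hle).toEquiv
  have e4 := MulAction.index_stabilizer P y
  have e5 := (MulAction.stabilizer P y).index_mul_card
  rw [e4, e1, Set.ncard_coe_finset, e3] at e5
  exact e5

/-- a semiregular action: the group order divides the size of the set -/
theorem semi (P : Subgroup G) (act : G → Y → Y) (h1 : ∀ y, act 1 y = y)
    (hm : ∀ g g' y, act (g * g') y = act g (act g' y)) (S : Finset Y)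
    (hinv : ∀ g ∈ P, ∀ y ∈ S, act g y ∈ S) (hfree : ∀ g ∈ P, ∀ y ∈ S, act g y = y → g = 1) :
    Nat.card P ∣ S.card := by
  classical
  induction S using Finset.strongInduction with
  | H S ih =>
    rcases S.eq_empty_or_nonempty with rfl | ⟨y, hy⟩
    · simp
    haveI : Fintype P := Fintype.ofFinite P
    let O : Finset Y := (Finset.univ : Finset P).image (fun g : P => act (g : G) y)
    have hO : ∀ z, z ∈ O ↔ ∃ g ∈ P, act g y = z := by
      intro z
      simp only [O, Finset.mem_image, Finset.mem_univ, true_and]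
      constructor
      · rintro ⟨g, h⟩; exact ⟨g, g.2, h⟩
      · rintro ⟨g, hg, h⟩; exact ⟨⟨g, hg⟩, h⟩
    have hc := orb P ⊥ act h1 hm y (fun g => by
      rw [Subgroup.mem_bot]
      constructor
      · rintro rfl; exact ⟨P.one_mem, h1 y⟩
      · rintro ⟨hg, h⟩; exact hfree g hg y hy h) O hO
    rw [Subgroup.card_bot, mul_one] at hc
    have hOS : O ⊆ S := by
      intro z hz
      obtain ⟨g, hg, rfl⟩ := (hO z).1 hz
      exact hinv g hg y hy
    have hyO : y ∈ O := (hO y).2 ⟨1, P.one_mem, h1 y⟩
    have hlt : S \ O ⊂ S := Finset.sdiff_ssubset hOS ⟨y, hyO⟩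
    have := ih (S \ O) hlt (by
      intro g hg z hz
      rw [Finset.mem_sdiff] at hz ⊢
      refine ⟨hinv g hg z hz.1, fun hO' => hz.2 ?_⟩
      obtain ⟨g', hg', e⟩ := (hO _).1 hO'
      refine (hO z).2 ⟨g⁻¹ * g', P.mul_mem (P.inv_mem hg) hg', ?_⟩
      rw [hm, e, ← hm, inv_mul_cancel, h1]) (by
      intro g hg z hz; exact hfree g hg z (Finset.mem_sdiff.1 hz).1)
    rw [← Finset.card_sdiff_add_card_eq_card hOS, hc]
    exact Dvd.dvd.add this dvd_rfl

end Act

/-- a fixed point free involution on a finite set: even size -/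
theorem even_of_inv {Y : Type*} (S : Finset Y) (f : Y → Y) (hS : ∀ y ∈ S, f y ∈ S)
    (hf : ∀ y ∈ S, f (f y) = y) (hne : ∀ y ∈ S, f y ≠ y) : Even S.card := by
  have h := Finset.sum_involution (s := S) (f := fun _ => (1 : ZMod 2)) (fun y _ => f y)
    (fun _ _ => by decide) (fun y hy _ => hne y hy) (fun y hy => hS y hy) (fun y hy => hf y hy)
  rw [Finset.sum_const, nsmul_eq_mul, mul_one] at h
  exact (ZMod.natCast_eq_zero_iff_even).1 h

section Grp

variable {G : Type*} [Group G]

/-- two involutions whose product has odd order are conjugate by a power of the product -/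
theorem conj_of_odd {s t : G} (hs : s * s = 1) (ht : t * t = 1) {m : ℕ} (hm : Odd m)
    (h : (s * t) ^ m = 1) : ∃ j : ℕ, (s * t) ^ j * t * ((s * t) ^ j)⁻¹ = s := by
  obtain ⟨j, rfl⟩ := hm
  have hs' : s⁻¹ = s := inv_eq_of_mul_eq_one_right hs
  have ht' : t⁻¹ = t := inv_eq_of_mul_eq_one_right ht
  have e1 : t * (s * t)⁻¹ = (s * t) * t := by
    rw [mul_inv_rev, ht', hs', ← mul_assoc, ht, mul_assoc, ht, one_mul, mul_one]
  have e2 : ∀ i : ℕ, t * ((s * t) ^ i)⁻¹ = (s * t) ^ i * t := by
    intro i
    induction i with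
    | zero => simp
    | succ i ih =>
      rw [pow_succ, mul_inv_rev, ← mul_assoc, e1, mul_assoc, ih, ← mul_assoc, ← pow_succ',
        ← pow_succ]
  refine ⟨j + 1, ?_⟩
  rw [mul_assoc, e2, ← mul_assoc, ← pow_add]
  have : j + 1 + (j + 1) = (2 * j + 1) + 1 := by ring
  rw [this, pow_succ, h, one_mul, mul_assoc, ht, mul_one]

/-- an automorphism inverting more than three quarters of a finite group -/
theorem comm_of_inv34 [Finite G] (T : Subgroup G) (u : G) (I : Finset G)
    (hI : ∀ a ∈ I, a ∈ T ∧ u * a * u⁻¹ = a⁻¹) (hc : 3 * Nat.card T < 4 * I.card) :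
    ∀ a ∈ T, ∀ b ∈ T, a * b = b * a := by
  classical
  haveI : Fintype G := Fintype.ofFinite G
  let Tf : Finset G := Finset.univ.filter (· ∈ T)
  have hT : Tf.card = Nat.card T := by
    rw [Nat.card_eq_fintype_card, Fintype.card_subtype]
  have hIT : I ⊆ Tf := fun a ha => by simp [Tf, (hI a ha).1]
  -- a subgroup containing more than half of `T` is `T`
  have big : ∀ (Q : Subgroup G) (J : Finset G), (∀ a ∈ J, a ∈ Q ∧ a ∈ T) →
      Nat.card T < 2 * J.card → T ≤ Q := by
    intro Q J hJ hlt
    have h1 : J.card ≤ Nat.card ↥(Q ⊓ T) := by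
      rw [Nat.card_eq_fintype_card, Fintype.card_subtype]
      exact Finset.card_le_card (fun a ha => by simp [hJ a ha])
    have h2 : Nat.card ↥(Q ⊓ T) ∣ Nat.card T := Subgroup.card_dvd_of_le inf_le_right
    obtain ⟨m, hm⟩ := h2
    have hpos : 0 < Nat.card T := Nat.card_pos
    have hm1 : m = 1 := by
      rcases m with _ | _ | m
      · omega
      · rfl
      · nlinarith
    have : Q ⊓ T = T := Subgroup.eq_of_le_of_card_ge inf_le_right (by rw [hm, hm1]; simp)
    rw [← this]; exact inf_le_left
  have cen : ∀ x ∈ I, T ≤ Subgroup.centralizer {x} := by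
    intro x hx
    let J : Finset G := I.filter (fun y => x * y ∈ I)
    have hJc : Nat.card T < 2 * J.card := by
      have e1 : (I.image (fun y => x⁻¹ * y)).card = I.card :=
        Finset.card_image_of_injective _ (mul_right_injective _)
      have e2 : I ∪ I.image (fun y => x⁻¹ * y) ⊆ Tf := by
        intro y hy
        rcases Finset.mem_union.1 hy with h | h
        · exact hIT h
        · obtain ⟨z, hz, rfl⟩ := Finset.mem_image.1 h
          simp only [Tf, Finset.mem_filter, Finset.mem_univ, true_and]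
          exact T.mul_mem (T.inv_mem (hI x hx).1) (hI z hz).1
      have e3 : I ∩ I.image (fun y => x⁻¹ * y) ⊆ J := by
        intro y hy
        obtain ⟨h1, h2⟩ := Finset.mem_inter.1 hy
        obtain ⟨z, hz, rfl⟩ := Finset.mem_image.1 h2
        simp only [J, Finset.mem_filter]
        exact ⟨h1, by simpa using hz⟩
      have e4 := Finset.card_union_add_card_inter I (I.image (fun y => x⁻¹ * y))
      have e5 := Finset.card_le_card e2
      have e6 := Finset.card_le_card e3
      omega
    refine big _ J (fun y hy => ?_) hJc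
    obtain ⟨h1, h2⟩ := Finset.mem_filter.1 hy
    refine ⟨?_, (hI y h1).1⟩
    rw [Subgroup.mem_centralizer_iff]
    rintro z rfl
    have a1 := (hI z hx).2
    have a2 := (hI y h1).2
    have a3 := (hI _ h2).2
    have : (z * y)⁻¹ = z⁻¹ * y⁻¹ := by
      rw [← a3, ← a1, ← a2]; group
    have h5 : (z * y)⁻¹ = (y * z)⁻¹ := by rw [this, mul_inv_rev]
    exact inv_injective h5
  intro a ha b hb
  have : T ≤ Subgroup.centralizer {a} := by
    refine big _ I (fun y hy => ⟨?_, (hI y hy).1⟩) (by omega)
    rw [Subgroup.mem_centralizer_iff]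
    rintro z rfl
    have := cen y hy ha
    rw [Subgroup.mem_centralizer_iff] at this
    exact (this y rfl).symm
  have := this hb
  rw [Subgroup.mem_centralizer_iff] at this
  exact this a rfl

end Grp

/-- the discriminant of a strongly regular graph on an even number of points is a square -/
theorem disc_square {X : Type*} [Fintype X] [DecidableEq X] (adj : X → X → Prop)
    [DecidableRel adj] (hs : ∀ a b, adj a b → adj b a) (hi : ∀ a, ¬ adj a a) (k lam mu : ℕ)
    (hk : ∀ a, (univ.filter (adj a)).card = k)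
    (hl : ∀ a b, adj a b → (univ.filter (fun x => adj a x ∧ adj b x)).card = lam)
    (hmu : ∀ a b, a ≠ b → ¬ adj a b → (univ.filter (fun x => adj a x ∧ adj b x)).card = mu)
    (hn : Even (Fintype.card X)) (hne : Nonempty X) (hkm : mu < k) (hlk : lam < k) :
    IsSquare (((lam : ℤ) - mu) ^ 2 + 4 * (k - mu)) := by
  let A : Matrix X X ℚ := Matrix.of fun a b => if adj a b then 1 else 0
  let J : Matrix X X ℚ := Matrix.of fun _ _ => 1
  set D : ℚ := ((lam : ℚ) - mu) ^ 2 + 4 * (k - mu) with hD
  have hkm' : (mu : ℚ) < k := by exact_mod_cast hkm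
  have hlk' : (lam : ℚ) < k := by exact_mod_cast hlk
  have hDpos : 0 < D := by rw [hD]; nlinarith [sq_nonneg ((lam : ℚ) - mu)]
  have hAA : ∀ a b, (A * A) a b = ((univ.filter (fun x => adj a x ∧ adj b x)).card : ℚ) := by
    intro a b
    rw [Matrix.mul_apply, Finset.card_filter]
    push_cast
    refine Finset.sum_congr rfl (fun x _ => ?_)
    by_cases h1 : adj a x <;> by_cases h2 : adj b x
    · simp [A, h1, h2, hs _ _ h2]
    · have : ¬ adj x b := fun h => h2 (hs _ _ h)
      simp [A, h1, h2, this]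
    · simp [A, h1]
    · simp [A, h1]
  have hA2 : A * A = ((k : ℚ) - mu) • (1 : Matrix X X ℚ) + ((lam : ℚ) - mu) • A + (mu : ℚ) • J := by
    ext a b
    rw [hAA]
    simp only [Matrix.add_apply, Matrix.smul_apply, smul_eq_mul, J, A, Matrix.one_apply,
      Matrix.of_apply]
    by_cases hab : a = b
    · subst hab
      have : (univ.filter (fun x => adj a x ∧ adj a x)) = univ.filter (adj a) := by
        ext x; simp
      rw [this, hk]; simp [hi a]
    · by_cases h : adj a b
      · rw [hl a b h]; simp [hab, h]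
      · rw [hmu a b hab h]; simp [hab, h]
  let B : Matrix X X ℚ := (2 : ℚ) • A - ((lam : ℚ) - mu) • (1 : Matrix X X ℚ)
  have hB : B * B = D • (1 + Matrix.replicateCol Unit (fun _ : X => 4 * (mu : ℚ) / D) *
      Matrix.replicateRow Unit (fun _ : X => (1 : ℚ))) := by
    have e1 : B * B = (4 : ℚ) • (A * A) - (4 * ((lam : ℚ) - mu)) • A
        + (((lam : ℚ) - mu) ^ 2) • (1 : Matrix X X ℚ) := by
      simp only [B, Matrix.sub_mul, Matrix.mul_sub, Matrix.smul_mul, Matrix.mul_smul, Matrix.one_mul,
        Matrix.mul_one, smul_smul]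
      module
    rw [e1, hA2]
    ext a b
    simp only [Matrix.add_apply, Matrix.sub_apply, Matrix.smul_apply, smul_eq_mul, J,
      Matrix.mul_apply, Matrix.replicateCol_apply, Matrix.replicateRow_apply, Finset.univ_unique,
      Finset.sum_singleton, Matrix.one_apply, Matrix.of_apply]
    have hD0 : D ≠ 0 := hDpos.ne'
    split_ifs
    · field_simp; rw [hD]; ring
    · field_simp; ring
  have hdet : B.det ^ 2 = D ^ Fintype.card X * (1 + Fintype.card X * (4 * (mu : ℚ) / D)) := by
    rw [sq, ← Matrix.det_mul, hB, Matrix.det_smul, Matrix.det_one_add_replicateCol_mul_replicateRow]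
    simp [dotProduct]
  -- the row sums
  obtain ⟨a⟩ := hne
  have hrow : ∀ x, ∑ y, A x y = k := by
    intro x
    rw [← hk x, Finset.card_filter]; push_cast; rfl
  have hpar : (k : ℚ) * k = (k - mu) + (lam - mu) * k + mu * Fintype.card X := by
    have e1 : ∑ y, (A * A) a y = (k : ℚ) * k := by
      simp only [Matrix.mul_apply]
      rw [Finset.sum_comm]
      simp only [← Finset.mul_sum, hrow]
      rw [← Finset.sum_mul, hrow]
    rw [← e1, hA2]
    simp only [Matrix.add_apply, Matrix.smul_apply, smul_eq_mul, Finset.sum_add_distrib,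
      ← Finset.mul_sum, hrow, J, Matrix.one_apply, Matrix.of_apply]
    simp
  obtain ⟨m, hm⟩ := hn
  have hpos : 0 < Fintype.card X := Fintype.card_pos_iff.2 ⟨a⟩
  obtain ⟨m', rfl⟩ : ∃ m', m = m' + 1 := ⟨m - 1, by omega⟩
  set θ : ℚ := 2 * k - (lam - mu) with hθ
  have hθpos : 0 < θ := by
    have : (0 : ℚ) ≤ mu := by positivity
    rw [hθ]; linarith
  have key : B.det ^ 2 = D * (D ^ m' * θ) ^ 2 := by
    have e : D + Fintype.card X * (4 * (mu : ℚ)) = θ ^ 2 := by
      rw [hD, hθ]; linarith
    rw [hdet, mul_pow, ← e, hm]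
    have hD0 : D ≠ 0 := hDpos.ne'
    field_simp
    ring
  have hsq : IsSquare D := by
    refine ⟨B.det / (D ^ m' * θ), ?_⟩
    have : D ^ m' * θ ≠ 0 := by positivity
    rw [div_mul_div_comm, ← sq, ← sq, key]
    field_simp
  have : D = ((((lam : ℤ) - mu) ^ 2 + 4 * (k - mu) : ℤ) : ℚ) := by rw [hD]; push_cast; ring
  rw [this] at hsq
  exact Rat.isSquare_intCast_iff.1 hsq

end Cfsg.Agent.H76.Rk
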