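/-
Rank 3 actions whose point stabiliser is a Frobenius group on one suborbit: the basic structure.
-/
import Cfsg.Agent.H76.RkA
import Cfsg.Agent.H12.ZassBasic

set_option autoImplicit false

namespace Cfsg.Agent.H76.Rk

open Finset MulAction

variable {G X : Type*} [Group G] [MulAction G X]

variable (G) in
/-- the pointwise stabiliser of two points -/
def S2 (a b : X) : Subgroup G := stabilizer G a ⊓ stabilizer G b

theorem mem_S2 {a b : X} {g : G} : g ∈ S2 G a b ↔ g • a = a ∧ g • b = b := Iff.rfl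

theorem S2_comm (a b : X) : S2 G a b = S2 G b a := inf_comm _ _

open Classical in
/-- neighbours -/
noncomputable def nb [Fintype X] (adj : X → X → Prop) (a : X) : Finset X := univ.filter (adj a)

open Classical in
/-- non-neighbours -/
noncomputable def nn [Fintype X] (adj : X → X → Prop) (a : X) : Finset X :=
  univ.filter (fun c => c ≠ a ∧ ¬ adj a c)

open Classical in
/-- fixed points -/
noncomputable def fx [Fintype X] (g : G) : Finset X := univ.filter (fun x => g • x = x)

@[simp] theorem mem_nb [Fintype X] {adj : X → X → Prop} {a b : X} : b ∈ nb adj a ↔ adj a b := by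
  simp [nb]

@[simp] theorem mem_nn [Fintype X] {adj : X → X → Prop} {a c : X} :
    c ∈ nn adj a ↔ c ≠ a ∧ ¬ adj a c := by simp [nn]

@[simp] theorem mem_fx [Fintype X] {g : G} {x : X} : x ∈ fx (X := X) g ↔ g • x = x := by simp [fx]

variable (G) in
/-- a primitive rank 3 graph with Frobenius action of the vertex stabilisers on the neighbours -/
structure R3 (adj : X → X → Prop) : Prop where
  symm : ∀ {a b}, adj a b → adj b a
  irr : ∀ {a}, ¬ adj a a
  inv : ∀ (g : G) {a b}, adj a b → adj (g • a) (g • b)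
  arc : ∀ {a b c d}, adj a b → adj c d → ∃ g : G, g • a = c ∧ g • b = d
  non : ∀ {a b c d}, a ≠ b → ¬ adj a b → c ≠ d → ¬ adj c d → ∃ g : G, g • a = c ∧ g • b = d
  frob : ∀ (g : G) {a b c}, adj a b → adj a c → b ≠ c → g • a = a → g • b = b → g • c = c → g = 1
  ex : ∀ a, ∃ b, adj a b
  exn : ∀ a, ∃ c, c ≠ a ∧ ¬ adj a c
  mid : ∀ {a c}, a ≠ c → ¬ adj a c → ∃ b, adj a b ∧ adj c b
  far : ∀ {a c}, a ≠ c → ¬ adj a c → ∃ d, adj c d ∧ ¬ adj a d
  nt : ∀ {a b}, adj a b → ∃ g : G, g ≠ 1 ∧ g • a = a ∧ g • b = b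

variable (G) in
/-- the same with Frobenius kernels and orders -/
structure RN [Fintype X] (adj : X → X → Prop) (K : X → Subgroup G) (k h t l : ℕ) : Prop
    extends R3 G adj where
  mem_K : ∀ {a g}, g ∈ K a ↔ g • a = a ∧ (g = 1 ∨ ∀ b, adj a b → g • b ≠ b)
  K_trans : ∀ {a b b'}, adj a b → adj a b' → ∃ y ∈ K a, y • b = b'
  card_K : ∀ a, Nat.card (K a) = k
  card_nb : ∀ a, (nb adj a).card = k
  card_nn : ∀ a, (nn adj a).card = l
  card_H : ∀ {a b}, adj a b → Nat.card (S2 G a b) = h
  card_T : ∀ {a c}, a ≠ c → ¬ adj a c → Nat.card (S2 G a c) = t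
  card_M : ∀ a : X, Nat.card (stabilizer G a) = k * h
  lt : l * t = k * h
  card_X : Fintype.card X = 1 + k + l
  card_G : Nat.card G = Fintype.card X * (k * h)

theorem card_S2_smul [Finite G] (g : G) (a b : X) :
    Nat.card (S2 G (g • a) (g • b)) = Nat.card (S2 G a b) := by
  refine Nat.card_congr ⟨fun x => ⟨g⁻¹ * x * g, ?_⟩, fun x => ⟨g * x * g⁻¹, ?_⟩, ?_, ?_⟩
  · have := mem_S2.1 x.2
    rw [mem_S2]; simp [mul_smul, this.1, this.2]
  · have := mem_S2.1 x.2
    rw [mem_S2]; simp [mul_smul, this.1, this.2]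
  · intro x; apply Subtype.ext; simp [mul_assoc]
  · intro x; apply Subtype.ext; simp [mul_assoc]

variable {adj : X → X → Prop}

namespace R3

theorem inv_iff (R : R3 G adj) (g : G) {a b : X} : adj (g • a) (g • b) ↔ adj a b :=
  ⟨fun h => by simpa using R.inv g⁻¹ h, R.inv g⟩

theorem ne (R : R3 G adj) {a b : X} (h : adj a b) : a ≠ b := by
  rintro rfl; exact R.irr h

theorem trans (R : R3 G adj) (a c : X) : ∃ g : G, g • a = c := by
  obtain ⟨b, hb⟩ := R.ex a
  obtain ⟨d, hd⟩ := R.ex c
  obtain ⟨g, hg, -⟩ := R.arc hb hd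
  exact ⟨g, hg⟩

theorem adj_of_fix (R : R3 G adj) {g : G} {a b : X} (ha : g • a = a) (h : adj a b) :
    adj a (g • b) := by
  have := R.inv g h; rwa [ha] at this

theorem nadj_of_fix (R : R3 G adj) {g : G} {a c : X} (ha : g • a = a) (h : ¬ adj a c) :
    ¬ adj a (g • c) := by
  intro h'; rw [← ha, R.inv_iff] at h'; exact h h'

theorem exists_RN [Finite G] [Fintype X] [Nonempty X] (R : R3 G adj) :
    ∃ (K : X → Subgroup G) (k h t l : ℕ), RN G adj K k h t l := by
  classical
  have hK : ∀ a : X, ∃ Ka : Subgroup G,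
      (∀ g, g ∈ Ka ↔ g • a = a ∧ (g = 1 ∨ ∀ b, adj a b → g • b ≠ b)) ∧
      ∀ b b', adj a b → adj a b' → ∃ y ∈ Ka, y • b = b' := by
    intro a
    obtain ⟨b, hb⟩ := R.ex a
    obtain ⟨Ka, h1, h2⟩ := H12.exists_frobenius_kernel (stabilizer G a) {b | adj a b} hb
      (fun m hm => R.adj_of_fix hm hb)
      (fun y hy => by
        obtain ⟨g, hg1, hg2⟩ := R.arc hb hy
        exact ⟨g, hg1, hg2⟩)
      (fun m hm hm1 x hx y hy hx1 hy1 => by
        by_contra hne
        exact hm1 (R.frob m hx hy hne hm hx1 hy1))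
    refine ⟨Ka, h1, fun c c' hc hc' => ?_⟩
    obtain ⟨y, hy, rfl⟩ := h2 c hc
    obtain ⟨y', hy', rfl⟩ := h2 c' hc'
    exact ⟨y' * y⁻¹, Ka.mul_mem hy' (Ka.inv_mem hy), by simp [mul_smul]⟩
  choose K hK1 hK2 using hK
  obtain ⟨a0⟩ := ‹Nonempty X›
  obtain ⟨b0, hb0⟩ := R.ex a0
  obtain ⟨c0, hc0, hc0'⟩ := R.exn a0
  have cnb : ∀ a, (nb adj a).card = (nb adj a0).card := by
    intro a
    obtain ⟨g, rfl⟩ := R.trans a0 a
    symm
    refine Finset.card_bij (fun x _ => g • x) (fun x hx => ?_) (fun x _ y _ h => ?_)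
      (fun y hy => ?_)
    · rw [mem_nb] at hx ⊢; exact R.inv g hx
    · exact smul_left_cancel g h
    · rw [mem_nb] at hy
      exact ⟨g⁻¹ • y, by rw [mem_nb, ← R.inv_iff g]; simpa using hy, by simp⟩
  have cnn : ∀ a, (nn adj a).card = (nn adj a0).card := by
    intro a
    obtain ⟨g, rfl⟩ := R.trans a0 a
    symm
    refine Finset.card_bij (fun x _ => g • x) (fun x hx => ?_) (fun x _ y _ h => ?_)
      (fun y hy => ?_)
    · rw [mem_nn] at hx ⊢
      exact ⟨fun h => hx.1 (smul_left_cancel g h), by rw [R.inv_iff]; exact hx.2⟩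
    · exact smul_left_cancel g h
    · rw [mem_nn] at hy
      refine ⟨g⁻¹ • y, ?_, by simp⟩
      rw [mem_nn, ← R.inv_iff g]
      refine ⟨fun h => hy.1 (by rw [← h]; simp), by simpa using hy.2⟩
  have cH : ∀ {a b}, adj a b → Nat.card (S2 G a b) = Nat.card (S2 G a0 b0) := by
    intro a b h
    obtain ⟨g, rfl, rfl⟩ := R.arc hb0 h
    exact card_S2_smul g _ _
  have cT : ∀ {a c}, a ≠ c → ¬ adj a c → Nat.card (S2 G a c) = Nat.card (S2 G a0 c0) := by
    intro a c h h'
    obtain ⟨g, rfl, rfl⟩ := R.non hc0.symm hc0' h h'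
    exact card_S2_smul g _ _
  have cK : ∀ a, Nat.card (K a) = (nb adj a0).card := by
    intro a
    obtain ⟨b, hb⟩ := R.ex a
    have := orb (K a) ⊥ (fun (g : G) (x : X) => g • x) (one_smul G) (fun g g' y => mul_smul g g' y)
      b (fun g => by
        rw [Subgroup.mem_bot]
        constructor
        · rintro rfl; exact ⟨(K a).one_mem, one_smul _ _⟩
        · rintro ⟨h1, h2⟩
          rcases ((hK1 a g).1 h1).2 with h | h
          · exact h
          · exact absurd h2 (h b hb)) (nb adj a) (fun z => by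
        rw [mem_nb]
        constructor
        · intro hz; exact hK2 a b z hb hz
        · rintro ⟨g, hg, rfl⟩; exact R.adj_of_fix ((hK1 a g).1 hg).1 hb)
    rw [Subgroup.card_bot, mul_one, cnb] at this
    exact this.symm
  have cM : ∀ a : X, Nat.card (stabilizer G a) = (nb adj a0).card * Nat.card (S2 G a0 b0) := by
    intro a
    obtain ⟨b, hb⟩ := R.ex a
    have := orb (stabilizer G a) (S2 G a b) (fun (g : G) (x : X) => g • x) (one_smul G)
      (fun g g' y => mul_smul g g' y) b (fun g => Iff.rfl) (nb adj a) (fun z => by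
        rw [mem_nb]
        constructor
        · intro hz
          obtain ⟨g, h1, h2⟩ := R.arc hb hz
          exact ⟨g, h1, h2⟩
        · rintro ⟨g, hg, rfl⟩; exact R.adj_of_fix hg hb)
    rw [cnb, cH hb] at this
    exact this.symm
  have clt : (nn adj a0).card * Nat.card (S2 G a0 c0) =
      (nb adj a0).card * Nat.card (S2 G a0 b0) := by
    have := orb (stabilizer G a0) (S2 G a0 c0) (fun (g : G) (x : X) => g • x) (one_smul G)
      (fun g g' y => mul_smul g g' y) c0 (fun g => Iff.rfl) (nn adj a0) (fun z => by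
        rw [mem_nn]
        constructor
        · intro hz
          obtain ⟨g, h1, h2⟩ := R.non hc0.symm hc0' hz.1.symm hz.2
          exact ⟨g, h1, h2⟩
        · rintro ⟨g, hg, rfl⟩
          refine ⟨fun h => hc0 (smul_left_cancel g (by rw [h]; exact hg.symm)),
            R.nadj_of_fix hg hc0'⟩)
    rw [this, cM]
  have cX : Fintype.card X = 1 + (nb adj a0).card + (nn adj a0).card := by
    have : (univ : Finset X) = insert a0 (nb adj a0 ∪ nn adj a0) := by
      ext x
      simp only [mem_univ, mem_insert, mem_union, mem_nb, mem_nn, true_iff]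
      by_cases h1 : x = a0
      · exact Or.inl h1
      · by_cases h2 : adj a0 x
        · exact Or.inr (Or.inl h2)
        · exact Or.inr (Or.inr ⟨h1, h2⟩)
    rw [← Finset.card_univ, this, Finset.card_insert_of_notMem (by simp [R.irr]),
      Finset.card_union_of_disjoint (by
        rw [Finset.disjoint_left]; intro x h1 h2; rw [mem_nb] at h1; rw [mem_nn] at h2
        exact h2.2 h1)]
    ring
  have cG : Nat.card G = Fintype.card X * ((nb adj a0).card * Nat.card (S2 G a0 b0)) := by
    have := orb (⊤ : Subgroup G) (stabilizer G a0) (fun (g : G) (x : X) => g • x) (one_smul G)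
      (fun g g' y => mul_smul g g' y) a0 (fun g => by simp) univ (fun z => by
        simpa using R.trans a0 z)
    rw [cM, Subgroup.card_top, Finset.card_univ] at this
    exact this.symm
  exact ⟨K, _, _, _, _, { R with
    mem_K := fun {a g} => hK1 a g
    K_trans := fun {a b b'} => hK2 a b b'
    card_K := cK, card_nb := cnb, card_nn := cnn, card_H := cH, card_T := cT, card_M := cM
    lt := clt, card_X := cX, card_G := cG }⟩

end R3

namespace RN

variable [Finite G] [Fintype X] {K : X → Subgroup G} {k h t l : ℕ}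

omit [Finite G] in
theorem K_fix (R : RN G adj K k h t l) {a : X} {g : G} (hg : g ∈ K a) : g • a = a :=
  (R.mem_K.1 hg).1

omit [Finite G] in
theorem K_free (R : RN G adj K k h t l) {a b : X} {g : G} (hg : g ∈ K a) (hb : adj a b)
    (h1 : g • b = b) : g = 1 := by
  rcases (R.mem_K.1 hg).2 with h | h
  · exact h
  · exact absurd h1 (h b hb)

omit [Finite G] in
theorem fix_nb (R : RN G adj K k h t l) {a : X} {g : G} (ha : g • a = a) (hg : g ∉ K a) :
    ∃ b, adj a b ∧ g • b = b := by
  by_contra hc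
  push Not at hc
  exact hg (R.mem_K.2 ⟨ha, Or.inr hc⟩)

omit [Finite G] in
theorem conj_K (R : RN G adj K k h t l) {a : X} {y : G} (hy : y ∈ K a) (g : G) :
    g * y * g⁻¹ ∈ K (g • a) := by
  rw [R.mem_K]
  refine ⟨by simp [mul_smul, R.K_fix hy], ?_⟩
  rcases (R.mem_K.1 hy).2 with h | h
  · left; simp [h]
  · right
    intro b hb e
    apply h (g⁻¹ • b) (by rw [← R.inv_iff g]; simpa using hb)
    rw [mul_smul, mul_smul] at e
    rw [eq_inv_smul_iff]; exact e

omit [Finite G] in
theorem conj_K' (R : RN G adj K k h t l) {a : X} {y g : G} (hy : y ∈ K a) (hg : g • a = a) :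
    g * y * g⁻¹ ∈ K a := by
  have := R.conj_K hy g; rwa [hg] at this

omit [Finite G] in
/-- an element fixing an edge acts fixed point freely on the kernel -/
theorem fpf (R : RN G adj K k h t l) {a b : X} (hab : adj a b) {x y : G} (ha : x • a = a)
    (hb : x • b = b) (hx : x ≠ 1) (hy : y ∈ K a) (hc : x * y = y * x) : y = 1 := by
  by_contra hy1
  have h1 : y • b ≠ b := fun e => hy1 (R.K_free hy hab e)
  refine hx (R.frob x hab (R.adj_of_fix (R.K_fix hy) hab) h1.symm ha hb ?_)
  rw [← mul_smul, hc, mul_smul, hb]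

omit [Finite G] in
theorem cen_K (R : RN G adj K k h t l) {a : X} {g y : G} (hy : y ∈ K a) (hy1 : y ≠ 1)
    (ha : g • a = a) (hc : g * y = y * g) : g ∈ K a := by
  by_contra hg
  obtain ⟨b, hb, hgb⟩ := R.fix_nb ha hg
  have : g ≠ 1 := by rintro rfl; exact hg (K a).one_mem
  exact hy1 (R.fpf hb ha hgb this hy hc)

omit [Finite G] in
theorem two_nb (R : RN G adj K k h t l) {a b : X} (hab : adj a b) : ∃ b', adj a b' ∧ b' ≠ b := by
  obtain ⟨c, hc, hc'⟩ := R.exn b
  obtain ⟨d, hd1, hd2⟩ := R.mid hc.symm hc'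
  obtain ⟨g, h1, h2⟩ := R.arc (R.symm hd1) hab
  refine ⟨g • c, by rw [← h1]; exact R.inv g (R.symm hd2), ?_⟩
  rw [← h2]; exact fun e => hc (smul_left_cancel g e)

theorem h_ge (R : RN G adj K k h t l) (a : X) : 2 ≤ h := by
  obtain ⟨b, hb⟩ := R.ex a
  obtain ⟨g, hg, h1, h2⟩ := R.nt hb
  rw [← R.card_H hb]
  haveI : Nontrivial (S2 G a b) := ⟨⟨⟨g, h1, h2⟩, 1, fun e => hg (congrArg Subtype.val e)⟩⟩
  exact Finite.one_lt_card

theorem h_dvd (R : RN G adj K k h t l) (a : X) : ∃ w, 0 < w ∧ k = 1 + w * h := by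
  classical
  obtain ⟨b, hb⟩ := R.ex a
  have := semi (S2 G a b) (fun (g : G) (x : X) => g • x) (one_smul G)
    (fun g g' y => mul_smul g g' y) ((nb adj a).erase b) (by
      intro g hg y hy
      rw [Finset.mem_erase, mem_nb] at hy ⊢
      exact ⟨fun e => hy.1 (smul_left_cancel g (by rw [e, hg.2])), R.adj_of_fix hg.1 hy.2⟩) (by
      intro g hg y hy e
      rw [Finset.mem_erase, mem_nb] at hy
      exact R.frob g hb hy.2 hy.1.symm hg.1 hg.2 e)
  rw [R.card_H hb, Finset.card_erase_of_mem (mem_nb.2 hb), R.card_nb] at this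
  obtain ⟨w, hw⟩ := this
  obtain ⟨b', hb', hne⟩ := R.two_nb hb
  have h2 : 2 ≤ k := by
    rw [← R.card_nb a]
    exact Finset.one_lt_card.2 ⟨b', mem_nb.2 hb', b, mem_nb.2 hb, hne⟩
  refine ⟨w, ?_, by rw [mul_comm]; omega⟩
  rcases w with _ | w
  · omega
  · omega

theorem cop (R : RN G adj K k h t l) (a : X) : Nat.Coprime k h := by
  obtain ⟨w, -, hw⟩ := R.h_dvd a
  rw [hw]; simp

omit [Finite G] in
theorem pow_k (R : RN G adj K k h t l) {a : X} {y : G} (hy : y ∈ K a) : y ^ k = 1 := by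
  have := pow_card_eq_one' (x := (⟨y, hy⟩ : K a))
  rw [R.card_K] at this
  exact congrArg Subtype.val this

omit [Finite G] in
theorem pow_h (R : RN G adj K k h t l) {a b : X} (hab : adj a b) {x : G} (ha : x • a = a)
    (hb : x • b = b) : x ^ h = 1 := by
  have := pow_card_eq_one' (x := (⟨x, ha, hb⟩ : S2 G a b))
  rw [R.card_H hab] at this
  exact congrArg Subtype.val this

/-- an element of a stabiliser of order dividing `k` lies in the kernel -/
theorem mem_K_of_pow (R : RN G adj K k h t l) {a : X} {g : G} (ha : g • a = a) (hk : g ^ k = 1) :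
    g ∈ K a := by
  by_contra hg
  obtain ⟨b, hb, hgb⟩ := R.fix_nb ha hg
  have h1 := R.pow_h hb ha hgb
  have : g = 1 := by
    have := pow_gcd_eq_one.2 ⟨hk, h1⟩
    rwa [R.cop a, pow_one] at this
  exact hg (this ▸ (K a).one_mem)

theorem K_swap (R : RN G adj K k h t l) {a c : X} {g : G} (hg : g ∈ K a) (hc : g • c = c) :
    g ∈ K c := R.mem_K_of_pow hc (R.pow_k hg)

/-- two points fixed by a non-trivial kernel element are not adjacent -/
theorem nadj_of_K (R : RN G adj K k h t l) {a c d : X} {g : G} (hg : g ∈ K a) (hg1 : g ≠ 1)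
    (hc : g • c = c) (hd : g • d = d) : ¬ adj c d :=
  fun e => hg1 (R.K_free (R.K_swap hg hc) e hd)

omit [Finite G] in
/-- a non-kernel element fixes exactly one neighbour -/
theorem nb_unique (R : RN G adj K k h t l) {a b b' : X} {g : G} (hg : g ≠ 1) (ha : g • a = a)
    (hb : adj a b) (hb' : adj a b') (h1 : g • b = b) (h2 : g • b' = b') : b = b' := by
  by_contra hne
  exact hg (R.frob g hb hb' hne ha h1 h2)

theorem l_pos (R : RN G adj K k h t l) (a : X) : 0 < l := by
  obtain ⟨c, hc⟩ := R.exn a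
  rw [← R.card_nn a]
  exact Finset.card_pos.2 ⟨c, mem_nn.2 hc⟩

theorem t_pos (R : RN G adj K k h t l) (a : X) : 0 < t := by
  obtain ⟨c, hc, hc'⟩ := R.exn a
  rw [← R.card_T hc.symm hc']; exact Nat.card_pos

end RN

end Cfsg.Agent.H76.Rk
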