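import Cfsg.Agent.H3.Tate
import Cfsg.Agent.H3.PComplement
import Cfsg.Agent.H44.Components
import Cfsg.Agent.H20.Frattini
import Cfsg.Agent.H2.Gaschutz
import Cfsg.Agent.H2.MinNormal

/-! Groups with a two-generated nonabelian Sylow subgroup: tools. -/

set_option autoImplicit false
open Cfsg Subgroup
open scoped commutatorElement

namespace Cfsg.Agent.H76.TG

variable {G : Type*} [Group G] {p : ℕ}

/-- Tate: a subnormal subgroup normalised by `P` and meeting `P` inside `Φ(P)` is a `p`-group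
when `O_{p'}(G) = 1`. -/
theorem pgrp_of_inf_le [Finite G] [Fact p.Prime] (P : Sylow p G)
    (hcore : pPrimeCore p G = ⊥) (N : Subgroup G) (hsn : N.IsSubnormal)
    (hn : (P : Subgroup G) ≤ normalizer (N : Set G))
    (h : N ⊓ P ≤ (frattini ↥(P : Subgroup G)).map (P : Subgroup G).subtype) : IsPGroup p N := by
  have hPH : (P : Subgroup G) ≤ N ⊔ (P : Subgroup G) := le_sup_right
  have hNH : N ≤ N ⊔ (P : Subgroup G) := le_sup_left
  have hHn : N ⊔ (P : Subgroup G) ≤ normalizer (N : Set G) := sup_le le_normalizer hn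
  haveI : (N.subgroupOf (N ⊔ (P : Subgroup G))).Normal :=
    (normal_subgroupOf_iff_le_normalizer hNH).2 hHn
  have h1 : pResidual p ↥(N ⊔ (P : Subgroup G)) ≤ N.subgroupOf (N ⊔ (P : Subgroup G)) := by
    apply H3.pResidual_le_of_isPGroup_quotient
    refine (P.subtype hPH).isPGroup'.of_surjective
      ((QuotientGroup.mk' _).comp (Subgroup.subtype _)) ?_
    intro q
    obtain ⟨x, rfl⟩ := QuotientGroup.mk'_surjective _ q
    have hx : (x : G) ∈ ((N ⊔ (P : Subgroup G) : Subgroup G) : Set G) := x.2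
    rw [coe_mul_of_right_le_normalizer_left N _ hn] at hx
    obtain ⟨n, hn', y, hy, hxy⟩ := hx
    refine ⟨⟨⟨y, hPH hy⟩, hy⟩, ?_⟩
    simp only [MonoidHom.comp_apply, QuotientGroup.mk'_apply, coe_subtype]
    rw [QuotientGroup.eq]
    change y⁻¹ * (x : G) ∈ N
    rw [← hxy]
    have := (mem_normalizer_iff.1 (hn (inv_mem hy)) n).1 hn'
    simpa [mul_assoc] using this
  have h2 : HasNormalPComplement p ↥(N ⊔ (P : Subgroup G)) := by
    apply H3.hasNormalPComplement_of_inf_pResidual_le_frattini (P.subtype hPH)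
    intro x hx
    obtain ⟨y, hy, hyx⟩ := h ⟨h1 hx, x.2⟩
    have h3 := frattini_le_comap_frattini_of_surjective
      (φ := (subgroupOfEquivOfLe hPH).symm.toMonoidHom) (subgroupOfEquivOfLe hPH).symm.surjective hy
    have h4 : (subgroupOfEquivOfLe hPH).symm.toMonoidHom y = x := Subtype.ext (Subtype.ext hyx)
    rw [mem_comap, h4] at h3
    exact h3
  have h3 : HasNormalPComplement p N := H3.hasNormalPComplement_of_le hNH h2
  rw [← H3.pResidual_eq_bot_iff]
  have h4 : (pResidual p N).map N.subtype ≤ pPrimeCore p G := by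
    refine H44.le_pPrimeCore_of_subnormal ?_ ?_
    · exact (H44.sn_map_subtype (H := N) (Normal.isSubnormal inferInstance)).isSubnormal hsn
    · rw [card_map_of_injective N.subtype_injective]
      exact H3.hasNormalPComplement_iff_coprime.1 h3
  rw [hcore, le_bot_iff, map_eq_bot_iff_of_injective _ N.subtype_injective] at h4
  exact h4

/-- A subgroup not inside a Frattini subgroup of index `p ^ 2` is supplemented by a cyclic group. -/
theorem exists_gen {X : Type*} [Group X] [Finite X] [hp : Fact p.Prime]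
    (hgen : (frattini X).index = p ^ 2) (D : Subgroup X) (hD : ¬ D ≤ frattini X) :
    ∃ y : X, D ⊔ zpowers y = ⊤ := by
  by_cases h1 : D ⊔ frattini X = ⊤
  · exact ⟨1, by rw [frattini_nongenerating h1]; simp⟩
  obtain ⟨y, hy⟩ : ∃ y, y ∉ D ⊔ frattini X := by
    by_contra h
    push Not at h
    exact h1 (eq_top_iff.2 fun y _ => h y)
  refine ⟨y, frattini_nongenerating ?_⟩
  have hlt : ∀ A B : Subgroup X, A ≤ B → ¬ B ≤ A → B.index ∣ A.index ∧ B.index ≠ A.index := by
    intro A B hAB hBA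
    refine ⟨index_dvd_of_le hAB, fun h => hBA ?_⟩
    have h2 := relIndex_mul_index hAB
    rw [← h] at h2
    have h3 : A.relIndex B = 1 :=
      Nat.eq_of_mul_eq_mul_right (Nat.pos_of_ne_zero B.index_ne_zero_of_finite)
        (h2.trans (one_mul _).symm)
    exact relIndex_eq_one.1 h3
  obtain ⟨a1, a2⟩ := hlt (frattini X) (D ⊔ frattini X) le_sup_right
    (fun h => hD (le_sup_left.trans h))
  obtain ⟨b1, b2⟩ := hlt (D ⊔ frattini X) (D ⊔ zpowers y ⊔ frattini X)
    (sup_le_sup_right le_sup_left _)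
    (fun h => hy (h (mem_sup_left (mem_sup_right (mem_zpowers y)))))
  rw [hgen] at a1 a2
  obtain ⟨i, hi, hi'⟩ := (Nat.dvd_prime_pow hp.out).1 a1
  have hi1 : i = 1 := by
    interval_cases i
    · exact absurd (index_eq_one.1 (by simpa using hi')) h1
    · rfl
    · exact absurd hi' a2
  rw [hi', hi1, pow_one] at b1 b2
  exact index_eq_one.1 (((Nat.dvd_prime hp.out).1 b1).resolve_right b2)

/-- Ambient form: `P = (N ∩ P)⟨y⟩`. -/
theorem exists_gen' [Finite G] [Fact p.Prime] (P N : Subgroup G)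
    (hgen : (frattini P).index = p ^ 2) (hn : P ≤ normalizer (N : Set G))
    (h : ¬ N ⊓ P ≤ (frattini P).map P.subtype) :
    ∃ y ∈ P, ∀ x ∈ P, ∃ n ∈ N, ∃ k : ℤ, x = n * y ^ k := by
  obtain ⟨y, hy⟩ := exists_gen hgen (N.subgroupOf P) (fun h' => h fun x hx =>
    ⟨⟨x, hx.2⟩, h' hx.1, rfl⟩)
  haveI : (N.subgroupOf P).Normal := by
    refine ⟨fun a ha g => ?_⟩
    exact (mem_normalizer_iff.1 (hn g.2) a).1 ha
  refine ⟨y, y.2, fun x hx => ?_⟩
  have h1 : (⟨x, hx⟩ : P) ∈ N.subgroupOf P ⊔ zpowers y := hy ▸ mem_top _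
  obtain ⟨n, hn', z, ⟨k, rfl⟩, hz⟩ := mem_sup_of_normal_left.1 h1
  exact ⟨n, hn', k, by simpa using (congrArg Subtype.val hz).symm⟩

theorem comm_le_of_gen {P N : Subgroup G} (hn : P ≤ normalizer (N : Set G)) {y : G} (hy : y ∈ P)
    (h : ∀ x ∈ P, ∃ n ∈ N, ∃ k : ℤ, x = n * y ^ k) : ⁅P, P⁆ ≤ N := by
  rw [commutator_le]
  intro a ha b hb
  obtain ⟨n, hn1, k, rfl⟩ := h a ha
  obtain ⟨m, hm1, l, rfl⟩ := h b hb
  have c1 : y ^ k * m * (y ^ k)⁻¹ ∈ N := (mem_normalizer_iff.1 (hn (zpow_mem hy k)) m).1 hm1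
  have c2 : y ^ l * n⁻¹ * (y ^ l)⁻¹ ∈ N :=
    (mem_normalizer_iff.1 (hn (zpow_mem hy l)) n⁻¹).1 (inv_mem hn1)
  have e : ⁅n * y ^ k, m * y ^ l⁆ =
      n * (y ^ k * m * (y ^ k)⁻¹) * (y ^ l * n⁻¹ * (y ^ l)⁻¹) * m⁻¹ := by
    rw [commutatorElement_def]
    have hc : y ^ k * y ^ l * (y ^ k)⁻¹ = y ^ l := by
      rw [(Commute.zpow_zpow_self y k l).eq]; group
    calc n * y ^ k * (m * y ^ l) * (n * y ^ k)⁻¹ * (m * y ^ l)⁻¹
        = n * (y ^ k * m * (y ^ k)⁻¹) * ((y ^ k * y ^ l * (y ^ k)⁻¹) * n⁻¹ * (y ^ l)⁻¹) * m⁻¹ := by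
          group
      _ = _ := by rw [hc]
  rw [e]
  exact mul_mem (mul_mem (mul_mem hn1 c1) c2) (inv_mem hm1)

/-- Transfer into an abelian subgroup of index prime to `p`. -/
theorem eq_one_of_transfer {X : Type*} [Group X] [Finite X] [hp : Fact p.Prime] (S : Subgroup X)
    (hS : IsMulCommutative S) (hi : ¬ p ∣ S.index) {z : X} (hz : z ∈ center X)
    (hc : z ∈ commutator X) (hp' : z ^ p = 1) : z = 1 := by
  letI : CommGroup S := { (inferInstance : Group S) with mul_comm := hS.is_comm.comm }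
  have h1 := MonoidHom.transfer_eq_pow (MonoidHom.id S) z (fun k g _ => by
    have := mem_center_iff.1 (pow_mem hz k) g⁻¹
    rw [this]; group)
  have h2 : MonoidHom.transfer (MonoidHom.id S) z = 1 :=
    (Abelianization.commutator_subset_ker (MonoidHom.transfer (MonoidHom.id S))) hc
  rw [h2] at h1
  have h3 : z ^ S.index = 1 := by simpa using (congrArg Subtype.val h1).symm
  have h4 : orderOf z ∣ Nat.gcd p S.index :=
    Nat.dvd_gcd (orderOf_dvd_of_pow_eq_one hp') (orderOf_dvd_of_pow_eq_one h3)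
  rw [((Nat.Prime.coprime_iff_not_dvd hp.out).2 hi).gcd_eq_one] at h4
  exact orderOf_eq_one_iff.1 (Nat.dvd_one.1 h4)

/-- In a cyclic `p`-group the elements of order `p` generate the same subgroup. -/
theorem zpow_mem_of_cyc [hp : Fact p.Prime] {N : Subgroup G} {y : G} {e : ℕ}
    (hy : orderOf y = p ^ e) {k l : ℤ} (hk : (y ^ k) ^ p = 1) (hl : (y ^ l) ^ p = 1)
    (hl1 : y ^ l ≠ 1) (hN : y ^ l ∈ N) : y ^ k ∈ N := by
  have hp0 : (p : ℤ) ≠ 0 := by exact_mod_cast hp.out.ne_zero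
  have d : ∀ m : ℤ, (y ^ m) ^ p = 1 → ((p : ℤ) ^ e) ∣ m * p := by
    intro m hm
    rw [← zpow_natCast, ← zpow_mul, ← orderOf_dvd_iff_zpow_eq_one, hy] at hm
    exact_mod_cast hm
  have nd : ¬ ((p : ℤ) ^ e) ∣ l := by
    intro h
    apply hl1
    rw [← orderOf_dvd_iff_zpow_eq_one, hy]
    exact_mod_cast h
  obtain _ | e := e
  · exact absurd (by simp) nd
  obtain ⟨k', hk'⟩ := (mul_dvd_mul_iff_right hp0).1 (pow_succ (p : ℤ) e ▸ d k hk)
  obtain ⟨l', hl'⟩ := (mul_dvd_mul_iff_right hp0).1 (pow_succ (p : ℤ) e ▸ d l hl)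
  have hw : y ^ ((p : ℤ) ^ e) ∈ N := by
    refine H3.mem_of_zpow_mem_of_not_dvd (p := p) (k := l') ?_ ?_ ?_
    · have : (y ^ ((p : ℤ) ^ e)) ^ p = 1 := by
        rw [← zpow_natCast, ← zpow_mul, ← orderOf_dvd_iff_zpow_eq_one, hy, ← pow_succ]
        exact_mod_cast dvd_rfl
      rw [this]; exact one_mem _
    · rw [← zpow_mul, ← hl']; exact hN
    · rintro ⟨t, rfl⟩
      exact nd ⟨t, by rw [hl']; ring⟩
  rw [hk', zpow_mul]
  exact zpow_mem hw k'

section Main

variable [Finite G] [hp : Fact p.Prime] (P : Sylow p G)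
  (hgen : (frattini ↥(P : Subgroup G)).index = p ^ 2) (hcore : pPrimeCore p G = ⊥)
  (hfrat : ((frattini ↥(P : Subgroup G)).map (P : Subgroup G).subtype).normalCore = ⊥)
include hcore hfrat

theorem not_inf_le (K : Subgroup G) [hK : K.Normal] (hne : K ≠ ⊥) :
    ¬ K ⊓ P ≤ (frattini ↥(P : Subgroup G)).map (P : Subgroup G).subtype := fun h => by
  have h1 := pgrp_of_inf_le P hcore K hK.isSubnormal (by simp [normalizer_eq_top]) h
  have h2 : K ≤ P := h1.le_sylow_of_normal P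
  exact hne (le_bot_iff.1 (hfrat ▸ normal_le_normalCore.2 fun x hx => h ⟨hx, h2 hx⟩))

include hgen

theorem gen_of_normal (K : Subgroup G) [hK : K.Normal] (hne : K ≠ ⊥) :
    ∃ y ∈ (P : Subgroup G), ∀ x ∈ (P : Subgroup G), ∃ n ∈ K, ∃ k : ℤ, x = n * y ^ k :=
  exists_gen' _ K hgen (by simp [normalizer_eq_top]) (not_inf_le P hcore hfrat K hne)

theorem comm_le_of_normal (K : Subgroup G) [hK : K.Normal] (hne : K ≠ ⊥) :
    ⁅(P : Subgroup G), (P : Subgroup G)⁆ ≤ K := by
  obtain ⟨y, hy, h⟩ := gen_of_normal P hgen hcore hfrat K hne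
  exact comm_le_of_gen (by simp [normalizer_eq_top]) hy h

/-- An abelian normal subgroup contained in all nontrivial normal subgroups is self-centralising. -/
theorem cent_le (N : Subgroup G) [hNn : N.Normal] (hN : N ≠ ⊥)
    (hmin : ∀ K : Subgroup G, K.Normal → K ≠ ⊥ → N ≤ K) (hab : IsMulCommutative N) :
    centralizer (N : Set G) ≤ N := by
  obtain ⟨q, hq, hq'⟩ := H2.minimal_normal_exponent_of_comm N hab hN (fun M hM hle =>
    or_iff_not_imp_left.2 fun h => le_antisymm hle (hmin M hM h))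
  obtain rfl : q = p := by
    by_contra hne
    haveI : Fact q.Prime := ⟨hq⟩
    exact hN (le_bot_iff.1 (hcore ▸ H44.le_pPrimeCore hNn
      (H44.coprime_of_isPGroup_of_ne hne (H2.isPGroup_of_forall_pow_eq_one hq'))))
  have hNq : IsPGroup q N := H2.isPGroup_of_forall_pow_eq_one hq'
  have hNP : N ≤ P := hNq.le_sylow_of_normal P
  obtain ⟨y, hy, hgy⟩ := gen_of_normal P hgen hcore hfrat N hN
  set C := centralizer (N : Set G) with hC
  haveI hCn : C.Normal := normal_centralizer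
  have hNC : N ≤ C := fun a ha b hb => H2.mul_comm_of_mem hab hb ha
  have hcc : ⁅C, C⁆ = ⊥ := by
    by_contra hne
    have h1 := hmin _ inferInstance hne
    obtain ⟨z, hz, hz1⟩ := N.bot_or_exists_ne_one.resolve_left hN
    refine hz1 (congrArg Subtype.val (eq_one_of_transfer (p := q) (X := C)
      ((P : Subgroup G).subgroupOf C) ?_ (H3.not_dvd_relIndex_sylow_of_normal P C)
      (z := ⟨z, hNC hz⟩) ?_ ?_ (Subtype.ext (hq' z hz))))
    · refine ⟨⟨fun a b => Subtype.ext (Subtype.ext ?_)⟩⟩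
      obtain ⟨n, hn, k, hk⟩ := hgy (a.1 : G) a.2
      obtain ⟨m, hm, l, hl⟩ := hgy (b.1 : G) b.2
      have c1 : y ^ k ∈ C := by
        have := mul_mem (inv_mem (hNC hn)) a.1.2
        rwa [hk, inv_mul_cancel_left] at this
      have c2 : y ^ l ∈ C := by
        have := mul_mem (inv_mem (hNC hm)) b.1.2
        rwa [hl, inv_mul_cancel_left] at this
      change (a.1 : G) * b.1 = b.1 * a.1
      rw [hk, hl]
      have d1 : Commute n m := H2.mul_comm_of_mem hab hn hm
      have d2 : Commute n (y ^ l) := c2 n hn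
      have d3 : Commute m (y ^ k) := c1 m hm
      exact (d1.mul_right d2).mul_left (d3.symm.mul_right (Commute.zpow_zpow_self y k l))
    · rw [mem_center_iff]
      intro g
      exact Subtype.ext (g.2 z hz).symm
    · have h2 := h1 hz
      rw [← map_subtype_commutator] at h2
      obtain ⟨w, hw, hwz⟩ := h2
      have : w = ⟨z, hNC hz⟩ := Subtype.ext hwz
      exact this ▸ hw
  have hCq : IsPGroup q C := by
    refine H44.isPGroup_of_le_pCore ?_
    rw [← H44.fitting_eq_pCore_of_pPrimeCore_eq_bot hcore]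
    exact H44.le_fitting hCn (H44.isNilpotent_of_commutator_eq_bot hcc)
  have hCP : C ≤ P := hCq.le_sylow_of_normal P
  have hCe : ∀ x ∈ C, x ^ q = 1 := by
    have h1 := (H3.map_frattini_le_iff P.isPGroup').1 le_rfl
    have h2 : (frattini C).map C.subtype ≤
        (frattini ↥(P : Subgroup G)).map (P : Subgroup G).subtype :=
      (H3.map_frattini_le_iff hCq).2 ⟨hcc.le.trans bot_le, fun x hx => h1.2 x (hCP hx)⟩
    haveI := H20.map_frattini_normal C
    have h3 := normal_le_normalCore.2 h2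
    rw [hfrat] at h3
    exact fun x hx => ((H3.map_frattini_le_iff hCq).1 h3).2 x hx
  intro c hc
  by_contra hcN
  obtain ⟨n, hn, k, hk⟩ := hgy c (hCP hc)
  have c1 : y ^ k ∈ C := by
    have := mul_mem (inv_mem (hNC hn)) hc
    rwa [hk, inv_mul_cancel_left] at this
  obtain ⟨e, he⟩ := IsPGroup.iff_orderOf.1 P.isPGroup' ⟨y, hy⟩
  rw [orderOf_mk] at he
  have hAN : zpowers y ⊓ N = ⊥ := by
    rw [eq_bot_iff]
    rintro z ⟨⟨l, rfl⟩, hz⟩
    by_contra h1
    exact hcN (hk ▸ mul_mem hn (zpow_mem_of_cyc he (hCe _ c1) (hq' _ hz) h1 hz))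
  obtain ⟨H, hH⟩ := H2.gaschutz_exists N P hNP (by
    obtain ⟨j, hj⟩ := hNq.exists_card_eq
    rw [hj]
    exact Nat.Coprime.pow_left j ((Nat.Prime.coprime_iff_not_dvd hq).2 P.not_dvd_index))
    (zpowers y) (zpowers_le.2 hy) hAN (le_antisymm (sup_le hNP (zpowers_le.2 hy)) fun x hx => by
      obtain ⟨m, hm, l, rfl⟩ := hgy x hx
      exact mul_mem_sup hm (zpow_mem (mem_zpowers y) l))
  have hD : (H ⊓ C).Normal := by
    refine ⟨fun d hd g => ⟨?_, hCn.conj_mem d hd.2 g⟩⟩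
    obtain ⟨⟨m, h⟩, rfl⟩ := (hH.existsUnique g).exists
    have h1 : (h : G) * d * (h : G)⁻¹ ∈ C := hCn.conj_mem d hd.2 h
    have h2 := h1 m m.2
    have h3 : (m : G) * h * d * ((m : G) * h)⁻¹ = h * d * (h : G)⁻¹ := by
      calc (m : G) * h * d * ((m : G) * h)⁻¹ = m * (h * d * (h : G)⁻¹) * (m : G)⁻¹ := by group
        _ = _ := by rw [h2]; group
    change (m : G) * h * d * ((m : G) * h)⁻¹ ∈ H
    rw [h3]
    exact mul_mem (mul_mem h.2 hd.1) (inv_mem h.2)
  have hD1 : H ⊓ C = ⊥ := by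
    by_contra h
    exact hN (le_bot_iff.1 ((le_inf le_rfl ((hmin _ hD h).trans inf_le_left)).trans
      hH.disjoint.le_bot))
  obtain ⟨⟨m, h⟩, hm⟩ := (hH.existsUnique c).exists
  have h1 : (h : G) ∈ H ⊓ C := by
    refine ⟨h.2, ?_⟩
    have := mul_mem (inv_mem (hNC m.2)) hc
    rw [← hm] at this
    simpa using this
  rw [hD1, mem_bot] at h1
  apply hcN
  rw [← hm]
  simp [h1]

end Main

end Cfsg.Agent.H76.TG
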